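import Cfsg.Agent.H62.Of.CaseOne

/-!
# S3938, `Ω⁺₈(5)`: automorphisms induced by similitudes, the reflections (helper62)
-/

set_option autoImplicit false
set_option linter.unusedSectionVars false
set_option linter.style.haveILetI false

namespace Cfsg.Agent.H62.Of

open Module QuadraticMap Cfsg.Agent.LieClassical.OrthCore Cfsg.Agent.LieClassical.OrthTrans
  Cfsg.Agent.LieClassical.OrthSimple
  Cfsg.Agent.ClassicalGeometry.OrthAut1 Cfsg.Agent.ClassicalGeometry.OrthAut2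
  Cfsg.Agent.LieClassical.QuadForms Cfsg.Agent.ClassicalGeometry.TrialityOct
  Cfsg.Agent.ClassicalGeometry.Triality Cfsg.Agent.ClassicalGeometry.OrthSemi Cfsg.Agent.H198.TriAut
  Cfsg.Agent.H465.OEight

/-- the reflection `e₀ ↔ f₀` -/
def rhoL : V ≃ₗ[R] V := LinearEquiv.funCongrLeft R R (Equiv.swap (Sum.inl 0) (Sum.inr 0))

theorem rhoL_apply (v : V) (j : Fin 4 ⊕ Fin 4) : rhoL v j = v (Equiv.swap (Sum.inl 0) (Sum.inr 0) j) := rfl

theorem Q_rhoL (v : V) : Q (rhoL v) = Q v := by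
  rw [norm8, norm8]
  simp only [rhoL_apply]
  have h1 : Equiv.swap (Sum.inl 0 : Fin 4 ⊕ Fin 4) (Sum.inr 0) (Sum.inl 0) = Sum.inr 0 := by decide
  have h2 : Equiv.swap (Sum.inl 0 : Fin 4 ⊕ Fin 4) (Sum.inr 0) (Sum.inr 0) = Sum.inl 0 := by decide
  have h3 : Equiv.swap (Sum.inl 0 : Fin 4 ⊕ Fin 4) (Sum.inr 0) (Sum.inl 1) = Sum.inl 1 := by decide
  have h4 : Equiv.swap (Sum.inl 0 : Fin 4 ⊕ Fin 4) (Sum.inr 0) (Sum.inl 2) = Sum.inl 2 := by decide
  have h5 : Equiv.swap (Sum.inl 0 : Fin 4 ⊕ Fin 4) (Sum.inr 0) (Sum.inl 3) = Sum.inl 3 := by decide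
  have h6 : Equiv.swap (Sum.inl 0 : Fin 4 ⊕ Fin 4) (Sum.inr 0) (Sum.inr 1) = Sum.inr 1 := by decide
  have h7 : Equiv.swap (Sum.inl 0 : Fin 4 ⊕ Fin 4) (Sum.inr 0) (Sum.inr 2) = Sum.inr 2 := by decide
  have h8 : Equiv.swap (Sum.inl 0 : Fin 4 ⊕ Fin 4) (Sum.inr 0) (Sum.inr 3) = Sum.inr 3 := by decide
  rw [h1, h2, h3, h4, h5, h6, h7, h8]
  ring

/-- the reflection `e₀ ↔ f₀` -/
def rho : SG R := ⟨rhoL, ⟨1, one_ne_zero, fun v => by rw [one_mul]; exact Q_rhoL v⟩⟩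

theorem rho_e0 : rho.1 (e 0) = f 0 := by
  funext j; revert j; decide

theorem rho_f0 : rho.1 (f 0) = e 0 := by
  funext j; revert j; decide

theorem rho_e {i : Fin 4} (hi : i ≠ 0) : rho.1 (e i) = e i := by
  funext j; revert i j; decide

theorem rho_f {i : Fin 4} (hi : i ≠ 0) : rho.1 (f i) = f i := by
  funext j; revert i j; decide

/-- the similitude `e_i ↦ e_i`, `f_i ↦ t f_i` -/
def nuL (t : Rˣ) : V ≃ₗ[R] V where
  toFun v := fun j => Sum.elim (fun i => v (.inl i)) (fun i => (t : R) * v (.inr i)) j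
  invFun v := fun j => Sum.elim (fun i => v (.inl i)) (fun i => ((t⁻¹ : Rˣ) : R) * v (.inr i)) j
  map_add' v w := by
    funext j
    rcases j with i | i
    · rfl
    · show (t : R) * (v (.inr i) + w (.inr i)) = t * v (.inr i) + t * w (.inr i); ring
  map_smul' a v := by
    funext j
    rcases j with i | i
    · rfl
    · show (t : R) * (a * v (.inr i)) = a * (t * v (.inr i)); ring
  left_inv v := by
    funext j
    rcases j with i | i
    · rfl
    · show ((t⁻¹ : Rˣ) : R) * (t * v (.inr i)) = _; rw [← mul_assoc, Units.inv_mul, one_mul]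
  right_inv v := by
    funext j
    rcases j with i | i
    · rfl
    · show (t : R) * (((t⁻¹ : Rˣ) : R) * v (.inr i)) = _; rw [← mul_assoc, Units.mul_inv, one_mul]

theorem Q_nuL (t : Rˣ) (v : V) : Q (nuL t v) = (t : R) * Q v := by
  rw [norm8, norm8]
  show v (.inl 0) * (t * v (.inr 0)) + v (.inl 1) * (t * v (.inr 1)) + v (.inl 2) * (t * v (.inr 2)) +
    v (.inl 3) * (t * v (.inr 3)) = _
  ring

/-- the similitude -/
def nu (t : Rˣ) : SG R := ⟨nuL t, ⟨t, t.ne_zero, Q_nuL t⟩⟩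

theorem nu_e (t : Rˣ) (i : Fin 4) : (nu t).1 (e i) = e i := by
  funext j
  rcases j with j | j
  · rfl
  · show (t : R) * (e i) (.inr j) = (e i) (.inr j)
    simp [e]

theorem nu_f (t : Rˣ) (i : Fin 4) : (nu t).1 (f i) = (t : R) • f i := by
  funext j
  rcases j with j | j
  · show (f i) (.inl j) = (t : R) * (f i) (.inl j)
    simp [f]
  · rfl

theorem psi_congr {a b : SG R} {c : R} (he : ∀ i, a.1 (e i) = c • b.1 (e i))
    (hf : ∀ i, a.1 (f i) = c • b.1 (f i)) : psi a = psi b := by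
  have h0 : (a.1 : V →ₗ[R] V) = c • (b.1 : V →ₗ[R] V) := ext_ef he hf
  have h1 : ∀ v, a.1 v = c • b.1 v := fun v => LinearMap.congr_fun h0 v
  have h2 : psi (b⁻¹ * a) = 1 := psi_eq_one (a := c) fun v => by
    rw [sg_mul_apply, h1, map_smul, sg_inv_apply]
  rw [map_mul, map_inv, inv_mul_eq_one] at h2
  exact h2.symm

theorem other (i : Fin 4) : ∃ j : Fin 4, j ≠ 0 ∧ j ≠ i := by revert i; decide

variable (C : Cert rho)

include C

theorem gd_rho : Gd (psi rho) := by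
  obtain ⟨x, hx⟩ := C.refl
  exact ⟨x, fun K h1 h2 => hx K h1 (h2 x h1)⟩

/-- the main case -/
theorem one_alpha0 {b : SG R} {κ : R} (hκ : κ ≠ 0) (hb0 : b.1 (e 0) = κ • f 0) : Gd (psi b) := by
  by_contra hn
  obtain ⟨c, hc0, hc'⟩ := b.2
  have hc : ∀ v, Q (b.1 v) = c * Q v := hc'
  have h1 := @a_one rho C b c κ hc0 hc hκ hb0 hn
  have h2 := @a_two rho C b c κ hc0 hc hκ hb0 hn
  have h3 := @a_three rho C b c κ hc0 hc hκ hb0 hn
  have e0e : ∀ i, polar Q (e 0) (e i) = 0 := fun i => polar_ee _ _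
  have f0f : ∀ i, polar Q (f 0) (f i) = 0 := fun i => polar_ff _ _
  have e0f : ∀ {i : Fin 4}, i ≠ 0 → polar Q (e 0) (f i) = 0 := fun {i} hi => by rw [polar_ef, if_neg hi.symm]
  have f0e : ∀ {i : Fin 4}, i ≠ 0 → polar Q (f 0) (e i) = 0 := fun {i} hi => by rw [polar_fe, if_neg hi.symm]
  have ef0 : ∀ {i : Fin 4}, i ≠ 0 → polar Q (e i) (f 0) = 0 := fun {i} hi => by rw [polar_ef, if_neg hi]
  have fe0 : ∀ {i : Fin 4}, i ≠ 0 → polar Q (f i) (e 0) = 0 := fun {i} hi => by rw [polar_fe, if_neg hi]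
  have eid : ∀ i, polar Q (e i) (f i) = 1 := fun i => by rw [polar_ef, if_pos rfl]
  have fid : ∀ i, polar Q (f i) (e i) = 1 := fun i => by rw [polar_fe, if_pos rfl]
  have efn : ∀ {i j : Fin 4}, i ≠ j → polar Q (e i) (f j) = 0 := fun {i j} h => by rw [polar_ef, if_neg h]
  have fen : ∀ {i j : Fin 4}, i ≠ j → polar Q (f i) (e j) = 0 := fun {i j} h => by rw [polar_fe, if_neg h]
  have hE : ∀ i : Fin 4, i ≠ 0 → ∃ β φ : R, b.1 (e i) = β • e i + φ • f 0 := fun i hi =>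
    h1 (Q_e i) (e_ne i) (e0e i) (f0e hi)
  have hF : ∀ i : Fin 4, i ≠ 0 → ∃ β φ : R, b.1 (f i) = β • f i + φ • f 0 := fun i hi =>
    h1 (Q_f i) (f_ne i) (e0f hi) (f0f i)
  -- equal eigenvalues
  have eqEE : ∀ {i j : Fin 4}, i ≠ 0 → j ≠ 0 → i ≠ j → ∀ {β β' φ φ' : R}, b.1 (e i) = β • e i + φ • f 0 →
      b.1 (e j) = β' • e j + φ' • f 0 → β = β' := fun {i j} hi hj hij {_ _ _ _} hs ht =>
    h2 (s := e i) (t := e j) (ds := f i) (dt := f j) (Q_e i) (Q_e j) (polar_ee _ _) (e0e i) (f0e hi) (e0e j) (f0e hj)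
      (fid i) (fen hij) (polar_ff _ _) (fid j) (fen hij.symm) (polar_ff _ _) hs ht
  have eqEF : ∀ {i j : Fin 4}, i ≠ 0 → j ≠ 0 → i ≠ j → ∀ {β β' φ φ' : R}, b.1 (e i) = β • e i + φ • f 0 →
      b.1 (f j) = β' • f j + φ' • f 0 → β = β' := fun {i j} hi hj hij {_ _ _ _} hs ht =>
    h2 (s := e i) (t := f j) (ds := f i) (dt := e j) (Q_e i) (Q_f j) (efn hij) (e0e i) (f0e hi) (e0f hj) (f0f j)
      (fid i) (polar_ff _ _) (polar_ff _ _) (eid j) (polar_ee _ _) (ef0 hj) hs ht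
  obtain ⟨β, φ1, hβ1⟩ := hE 1 (by decide)
  have hEβ : ∀ i : Fin 4, i ≠ 0 → ∃ φ : R, b.1 (e i) = β • e i + φ • f 0 := by
    intro i hi
    by_cases h1i : i = 1
    · rw [h1i]; exact ⟨φ1, hβ1⟩
    obtain ⟨β', φ, h⟩ := hE i hi
    have := eqEE (by decide) hi (fun h => h1i h.symm) hβ1 h
    subst this
    exact ⟨φ, h⟩
  have hFβ : ∀ i : Fin 4, i ≠ 0 → ∃ φ : R, b.1 (f i) = β • f i + φ • f 0 := by
    intro i hi
    obtain ⟨β', φ, h⟩ := hF i hi
    by_cases h1i : i = 1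
    · obtain ⟨φ2, h'⟩ := hEβ 2 (by decide)
      have := eqEF (i := 2) (by decide) hi (by rw [h1i]; decide) h' h
      subst this
      exact ⟨φ, h⟩
    · have := eqEF (by decide) hi (fun h => h1i h.symm) hβ1 h
      subst this
      exact ⟨φ, h⟩
  have hβ : β ≠ 0 := by
    rintro rfl
    have h4 : b.1 (e 1 - (φ1 * κ⁻¹) • e 0) = 0 := by
      rw [map_sub, map_smul, hβ1, hb0, zero_smul, zero_add, smul_smul]
      have : φ1 * κ⁻¹ * κ = φ1 := by field_simp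
      rw [this, sub_self]
    have h5 := b.1.map_eq_zero_iff.1 h4
    have h6 := congrArg (polar Q (f 1)) h5
    rw [polar_sub_right, polar_smul_right, fid, fe0 (by decide), smul_zero, sub_zero, polar_zero_right] at h6
    exact one_ne_zero h6
  -- the shears vanish
  have hE0 : ∀ i : Fin 4, i ≠ 0 → b.1 (e i) = β • e i := by
    intro i hi
    obtain ⟨φ, hs⟩ := hEβ i hi
    obtain ⟨j, hj, hij⟩ : ∃ j : Fin 4, j ≠ 0 ∧ j ≠ i := other i
    obtain ⟨φ', ht⟩ := hEβ j hj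
    have := h3 (s := e i) (t := e j) (d := f j) (Q_e i) (Q_e j) (polar_ee _ _) (e0e i) (f0e hi) (e0e j) (f0e hj)
      (fid j) (fen hij) (fe0 hj) (polar_ff _ _) hβ hs ht
    rw [hs, this, zero_smul, add_zero]
  have hF0 : ∀ i : Fin 4, i ≠ 0 → b.1 (f i) = β • f i := by
    intro i hi
    obtain ⟨φ, hs⟩ := hFβ i hi
    obtain ⟨j, hj, hij⟩ : ∃ j : Fin 4, j ≠ 0 ∧ j ≠ i := other i
    obtain ⟨φ', ht⟩ := hEβ j hj
    have := h3 (s := f i) (t := e j) (d := f j) (Q_f i) (Q_e j) (fen hij.symm) (e0f hi) (f0f i) (e0e j) (f0e hj)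
      (fid j) (polar_ff _ _) (fe0 hj) (polar_ff _ _) hβ hs ht
    rw [hs, this, zero_smul, add_zero]
  -- the multiplier
  have hc1 : c = β * β := by
    have h4 : polar Q (b.1 (e 1)) (b.1 (f 1)) = c * polar Q (e 1) (f 1) := sim_polar hc _ _
    rw [hE0 1 (by decide), hF0 1 (by decide), polar_smul_left, polar_smul_right, eid, mul_one, smul_eq_mul,
      smul_eq_mul, mul_one] at h4
    exact h4.symm
  have hpol : ∀ v w, polar Q (b.1 v) (b.1 w) = c * polar Q v w := fun v w => sim_polar (b := b.1) hc v w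
  -- the image of `f₀`
  have hκκ : κ⁻¹ * κ = 1 := inv_mul_cancel₀ hκ
  have hf0 : b.1 (f 0) = (κ⁻¹ * (β * β)) • e 0 := by
    have k1 : ∀ i : Fin 4, i ≠ 0 → (b.1 (f 0)) (.inr i) = 0 := by
      intro i hi
      have h4 := hpol (e i) (f 0)
      rw [hE0 i hi, ef0 hi, polar_smul_left, polar_e, mul_zero] at h4
      exact (smul_eq_zero.1 h4).resolve_left hβ
    have k2 : ∀ i : Fin 4, i ≠ 0 → (b.1 (f 0)) (.inl i) = 0 := by
      intro i hi
      have h4 := hpol (f i) (f 0)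
      rw [hF0 i hi, polar_ff, polar_smul_left, polar_f, mul_zero] at h4
      exact (smul_eq_zero.1 h4).resolve_left hβ
    have k3 : (b.1 (f 0)) (.inl 0) = κ⁻¹ * (β * β) := by
      have h4 := hpol (e 0) (f 0)
      rw [hb0, eid, polar_smul_left, polar_f, smul_eq_mul, mul_one, hc1] at h4
      rw [← h4, ← mul_assoc, hκκ, one_mul]
    have hne : κ⁻¹ * (β * β) ≠ 0 := mul_ne_zero (inv_ne_zero hκ) (mul_ne_zero hβ hβ)
    have k4 : (b.1 (f 0)) (.inr 0) = 0 := by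
      have h4 := hc (f 0)
      rw [Q_f, norm8, k1 1 (by decide), k1 2 (by decide), k1 3 (by decide), k3] at h4
      simp only [mul_zero, add_zero] at h4
      exact (mul_eq_zero.1 h4).resolve_left hne
    funext j
    rcases j with i | i
    · by_cases hi : i = 0
      · rw [hi, k3]; simp [e]
      · rw [k2 i hi]; simp [e, hi]
    · by_cases hi : i = 0
      · rw [hi, k4]; simp [e]
      · rw [k1 i hi]; simp [e]
  -- conclusion
  apply hn
  have htne : β * κ⁻¹ ≠ 0 := mul_ne_zero hβ (inv_ne_zero hκ)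
  set t : Rˣ := Units.mk0 (β * κ⁻¹) htne with ht
  have htv : (t : R) = β * κ⁻¹ := rfl
  have nf : ∀ i, (nu t)⁻¹.1 (f i) = (β * κ⁻¹)⁻¹ • f i := by
    intro i
    have h4 := sg_inv_apply (nu t) (f i)
    rw [nu_f, map_smul, htv] at h4
    have h5 := congrArg (fun v => (β * κ⁻¹)⁻¹ • v) h4
    simp only [smul_smul, inv_mul_cancel₀ htne, one_smul] at h5
    exact h5
  have ne : ∀ i, (nu t)⁻¹.1 (e i) = e i := by
    intro i
    have h4 := sg_inv_apply (nu t) (e i)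
    rwa [nu_e] at h4
  have h4 : psi b = psi ((nu t)⁻¹ * rho * nu t) := by
    refine psi_congr (c := β) (fun i => ?_) (fun i => ?_)
    · rw [sg_mul_apply, sg_mul_apply, nu_e]
      by_cases hi : i = 0
      · rw [hi, rho_e0, nf, hb0, smul_smul]
        congr 1
        field_simp
      · rw [rho_e hi, ne, hE0 i hi]
    · rw [sg_mul_apply, sg_mul_apply, nu_f, map_smul, map_smul, htv]
      by_cases hi : i = 0
      · rw [hi, rho_f0, ne, hf0, smul_smul]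
        congr 1
        ring
      · rw [rho_f hi, nf, hF0 i hi, smul_smul, smul_smul, mul_inv_cancel_right₀ htne]
  rw [h4]
  apply Gd.of_psi_conj (nu t)⁻¹
  have h5 : (nu t)⁻¹⁻¹ * ((nu t)⁻¹ * rho * nu t) * (nu t)⁻¹ = rho := by group
  rw [h5]
  exact gd_rho C

/-- **similitudes** -/
theorem gd_psi {b : SG R} (hb : psi b ≠ 1) : Gd (psi b) := by
  by_cases h : ∀ p, Q p = 0 → polar Q p (b.1 p) = 0
  · exact one_beta C hb h
  push Not at h
  obtain ⟨p, hp, hne⟩ := h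
  obtain ⟨c, hc0, hc'⟩ := b.2
  have hc : ∀ v, Q (b.1 v) = c * Q v := hc'
  set κ := polar Q p (b.1 p) with hκ
  have hκκ : κ⁻¹ * κ = 1 := inv_mul_cancel₀ hne
  have hκκ' : κ * κ⁻¹ = 1 := mul_inv_cancel₀ hne
  have h1 : Hyp Q (e 0) (f 0) := ⟨Q_e 0, Q_f 0, by rw [polar_ef, if_pos rfl]⟩
  have h2 : Hyp Q p (κ⁻¹ • b.1 p) :=
    ⟨hp, by rw [QuadraticMap.map_smul, hc, hp]; simp, by rw [polar_smul_right, ← hκ, smul_eq_mul, hκκ]⟩
  obtain ⟨g, hg, hg1, hg2⟩ := hG.trans_hyp h1 h2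
  let γ : SG R := ⟨g, E_le_SG hg⟩
  apply Gd.of_psi_conj γ
  refine one_alpha0 C hne ?_
  rw [sg_mul_apply, sg_mul_apply]
  have h3 : γ.1 (e 0) = p := hg1
  have h4 : γ.1 (f 0) = κ⁻¹ • b.1 p := hg2
  rw [h3]
  have h5 : b.1 p = γ.1 (κ • f 0) := by rw [map_smul, h4, smul_smul, hκκ', one_smul]
  rw [h5, sg_inv_apply]

end Cfsg.Agent.H62.Of
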