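import Cfsg.Agent.H62.Of.CaseTwo

/-!
# S3938, `Ω⁺₈(5)`: triality automorphisms of order 3 (helper62)
-/

set_option autoImplicit false
set_option linter.unusedSectionVars false
set_option linter.style.haveILetI false

namespace Cfsg.Agent.H62.Of

open Module QuadraticMap Cfsg.Agent.LieClassical.OrthCore Cfsg.Agent.LieClassical.OrthTrans
  Cfsg.Agent.LieClassical.OrthSimple
  Cfsg.Agent.ClassicalGeometry.OrthAut1 Cfsg.Agent.ClassicalGeometry.OrthAut2
  Cfsg.Agent.ClassicalGeometry.OrthAut2b Cfsg.Agent.H907.TriFlag Cfsg.Agent.ClassicalGeometry.TrialityIndex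
  Cfsg.Agent.LieClassical.QuadForms Cfsg.Agent.ClassicalGeometry.TrialityOct
  Cfsg.Agent.ClassicalGeometry.Triality Cfsg.Agent.ClassicalGeometry.OrthSemi Cfsg.Agent.H198.TriAut
  Cfsg.Agent.H465.OEight

/-- standard position of a 4-space and a point outside -/
theorem exists_std {u : V} (hu : Q u = 0) {S : Submodule R V} (hS : TS Q S) (h4 : finrank R S = 4) (huS : u ∉ S) :
    ∃ g : SG R, g.1 (f 0) = u ∧ im g.1 L0 = S := by
  have h8 := finrank_V
  obtain ⟨s0, hs0, hs0u⟩ : ∃ s ∈ S, polar Q u s = 1 := by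
    by_contra hcon
    push Not at hcon
    apply huS
    refine mem_of_perp hG hS (by omega) fun a ha => ?_
    by_contra hne
    apply hcon ((polar Q u a)⁻¹ • a) (S.smul_mem _ ha)
    rw [polar_smul_right, smul_eq_mul, inv_mul_cancel₀ hne]
  have h3 : finrank R (perpIn Q S u) = 3 := by
    have h1 := finrank_perpIn (Q := Q) S u
    have h2 : finrank R (perpIn Q S u) < 4 := by
      refine lt_of_lt_of_eq (Submodule.finrank_lt_finrank_of_lt (inf_le_left.lt_of_ne fun h => ?_)) h4
      have h5 : s0 ∈ perpIn Q S u := by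
        rw [perpIn, h]; exact hs0
      have h6 := (mem_perpIn.1 h5).2
      rw [hs0u] at h6
      exact one_ne_zero h6
    omega
  let B : Basis (Fin 3) R (perpIn Q S u) := finBasisOfFinrankEq R _ h3
  have hBS : ∀ i, (B i : V) ∈ S := fun i => (mem_perpIn.1 (B i).2).1
  have hBu : ∀ i, polar Q u (B i : V) = 0 := fun i => (mem_perpIn.1 (B i).2).2
  have hBu' : ∀ i, polar Q (B i : V) u = 0 := fun i => by rw [polar_comm]; exact hBu i
  have hs0u' : polar Q s0 u = 1 := by rw [polar_comm]; exact hs0u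
  have huu := polar_self_of_sing hu
  obtain ⟨g, hg, hxy⟩ := witt (x := ![e 0, e 1, e 2, e 3, f 0]) (y := ![s0, B 0, B 1, B 2, u]) (li_of fun g hg => by
      simp only [Fin.sum_univ_five, Matrix.cons_val] at hg
      have h0 := congrFun hg (.inl 0)
      have h1 := congrFun hg (.inl 1)
      have h2 := congrFun hg (.inl 2)
      have h3 := congrFun hg (.inl 3)
      have h4 := congrFun hg (.inr 0)
      simp [e, f] at h0 h1 h2 h3 h4
      intro i
      fin_cases i <;> assumption) (li_of fun g hg => by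
      simp only [Fin.sum_univ_five, Matrix.cons_val] at hg
      have h0 := congrArg (polar Q u) hg
      simp only [polar_add_right, polar_smul_right, polar_zero_right, hs0u, hBu, huu, smul_eq_mul, mul_zero, mul_one,
        add_zero] at h0
      have h4 := congrArg (polar Q s0) hg
      simp only [polar_add_right, polar_smul_right, polar_zero_right, hs0u', hS.polar hs0 (hBS _),
        hS.polar hs0 hs0, smul_eq_mul, mul_zero, mul_one, add_zero, zero_add] at h4
      rw [h0, h4, zero_smul, zero_smul, zero_add, add_zero] at hg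
      have h5 : ∑ i : Fin 3, (![g 1, g 2, g 3] i) • B i = 0 := by
        apply Subtype.ext
        simp only [Fin.sum_univ_three, Matrix.cons_val]
        exact hg
      have h6 := Fintype.linearIndependent_iff.1 B.linearIndependent _ h5
      have h61 : g 1 = 0 := h6 0
      have h62 : g 2 = 0 := h6 1
      have h63 : g 3 = 0 := h6 2
      intro i
      fin_cases i <;> assumption) (by
      intro i
      fin_cases i <;> simp only [Matrix.cons_val, Fin.zero_eta, Fin.mk_one, Fin.reduceFinMk, Fin.isValue, Q_e, Q_f,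
        hu, hS s0 hs0, hS _ (hBS _)]) (by
      intro i j
      fin_cases i <;> fin_cases j <;> simp only [Matrix.cons_val, Fin.zero_eta, Fin.mk_one, Fin.reduceFinMk,
        Fin.isValue, polar_ee, polar_ff, polar_ef, polar_fe, hS.polar hs0 (hBS _), hS.polar (hBS _) hs0,
        hS.polar hs0 hs0, hS.polar (hBS _) (hBS _), hBu, hBu', hs0u, hs0u', huu] <;> rfl)
  have g0 : g.1 (e 0) = s0 := hxy 0
  have g1 : g.1 (e 1) = B 0 := hxy 1
  have g2 : g.1 (e 2) = B 1 := hxy 2
  have g3 : g.1 (e 3) = B 2 := hxy 3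
  have g4 : g.1 (f 0) = u := hxy 4
  refine ⟨g, g4, le_antisymm ?_ ?_⟩
  · rintro _ ⟨v, hv, rfl⟩
    have h1 : v = v (.inl 0) • e 0 + v (.inl 1) • e 1 + v (.inl 2) • e 2 + v (.inl 3) • e 3 := by
      funext j
      rcases j with i | i
      · fin_cases i <;> simp [e]
      · rw [hv i]; simp [e]
    show g.1 v ∈ S
    rw [h1, map_add, map_add, map_add, map_smul, map_smul, map_smul, map_smul, g0, g1, g2, g3]
    exact S.add_mem (S.add_mem (S.add_mem (S.smul_mem _ hs0) (S.smul_mem _ (hBS _))) (S.smul_mem _ (hBS _)))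
      (S.smul_mem _ (hBS _))
  · intro v hv
    have h1 : v - polar Q u v • s0 ∈ perpIn Q S u := by
      rw [mem_perpIn]
      refine ⟨S.sub_mem hv (S.smul_mem _ hs0), ?_⟩
      rw [polar_sub_right, polar_smul_right, hs0u, smul_eq_mul, mul_one, sub_self]
    have h2 := congrArg (Subtype.val) (B.sum_repr ⟨_, h1⟩)
    simp only [Fin.sum_univ_three] at h2
    set c := B.repr ⟨_, h1⟩
    have h3 : v = polar Q u v • s0 + (c 0 • (B 0 : V) + c 1 • (B 1 : V) + c 2 • (B 2 : V)) := by
      have h4 : c 0 • (B 0 : V) + c 1 • (B 1 : V) + c 2 • (B 2 : V) = v - polar Q u v • s0 := h2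
      rw [h4]; abel
    refine ⟨polar Q u v • e 0 + (c 0 • e 1 + c 1 • e 2 + c 2 • e 3),
      L0.add_mem (L0.smul_mem _ (e_mem 0)) (L0.add_mem (L0.add_mem (L0.smul_mem _ (e_mem 1))
        (L0.smul_mem _ (e_mem 2))) (L0.smul_mem _ (e_mem 3))), ?_⟩
    show g.1 _ = v
    rw [map_add, map_add, map_add, map_smul, map_smul, map_smul, map_smul, g0, g1, g2, g3]
    exact h3.symm

section general

variable {F W : Type*} [Field F] [AddCommGroup W] [Module F W] {q : QuadraticForm F W}

/-- a triality automorphism of order 3 has non-incident pairs -/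
theorem exists_nonincident [Finite F] [FiniteDimensional F W] (hG : Good q) (p : ℕ) [Fact p.Prime] [CharP F p]
    (h8 : finrank F W = 8) {α : MulAut (P q)} (h3 : α ^ 3 = 1)
    (hS : ∀ u, q u = 0 → u ≠ 0 → ∃ X : Submodule F W, TS q X ∧ finrank F X = 4 ∧
      (stab hG (Submodule.span F {u})).map α.toMonoidHom = stab hG X)
    (hS' : ∀ u, q u = 0 → u ≠ 0 → ∃ X : Submodule F W, TS q X ∧ finrank F X = 4 ∧
      (stab hG (Submodule.span F {u})).map (α⁻¹).toMonoidHom = stab hG X)
    (hpar : ∀ (h : ↥(E q)) (X : Submodule F W), TS q X → finrank F X = 4 →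
      Even (finrank F ↥(X ⊓ mapHom (h : W ≃ₗ[F] W) X)))
    {u : W} (hQu : q u = 0) (hu0 : u ≠ 0)
    (hex : ∀ u : W, q u = 0 → u ≠ 0 → ∀ X : Submodule F W, TS q X → finrank F X = 4 →
      (stab hG (Submodule.span F {u})).map α.toMonoidHom = stab hG X → u ∈ X) : False := by
  -- the spaces of a point
  obtain ⟨X, hX, hX4, c1⟩ := hS u hQu hu0
  obtain ⟨Y, hY, hY4, hYs⟩ := hS' u hQu hu0
  set Cc := Submodule.span F {u} with hC
  have c2 : (stab hG X).map α.toMonoidHom = stab hG Y := by
    rw [← c1, ← hYs, ← map_mulAut_mul]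
    congr 2
    rw [eq_inv_iff_mul_eq_one, mul_assoc]
    have : α * (α * α) = α ^ 3 := by rw [pow_succ, pow_two, mul_assoc]
    rw [this, h3]
  have c3 : (stab hG Y).map α.toMonoidHom = stab hG Cc := by
    rw [← hYs, map_mulAut_inv']
  have hbot : ∀ {Z : Submodule F W}, finrank F Z = 4 → Z ≠ ⊥ := by
    rintro Z hZ rfl
    rw [finrank_bot] at hZ
    omega
  have hC1 : finrank F Cc = 1 := finrank_span_singleton hu0
  have hXY : X ≠ Y := by
    intro h
    rw [← h] at c2
    have h1 : stab hG Cc = stab hG X := Subgroup.map_injective α.injective (c1.trans c2.symm)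
    have h2 := stab_injective hG (TS_span hQu) hX (by
      rw [Ne, Submodule.span_singleton_eq_bot]; exact hu0) (hbot hX4) h1
    rw [hC, h2] at hC1
    omega
  have hdX : finrank F W = 2 * finrank F X := by omega
  have hdY : finrank F W = 2 * finrank F Y := by omega
  have huX : u ∈ X := hex u hQu hu0 X hX hX4 c1
  -- `u ∈ Y`
  have m1 : Rel p (stab hG X) (stab hG Cc) → Rel p (stab hG Y) (stab hG X) := fun h => by
    have := h.map α
    rwa [c1, c2] at this
  have m2 : Rel p (stab hG Y) (stab hG X) → Rel p (stab hG Cc) (stab hG Y) := fun h => by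
    have := h.map α
    rwa [c2, c3] at this
  have huY : u ∈ Y :=
    mem_of_rel_span hG hY hdY hQu (m2 (m1 (rel_stab_span hG p hX huX hu0)))
  have hXY3 : 3 ≤ finrank F ↥(X ⊓ Y) := by
    have h1 : Rel p (stab hG X) (stab hG Y) := by
      have := (rel_span_stab hG (by omega) p hX huX hu0).map α
      rwa [c1, c2] at this
    have h2 := finrank_inf_of_UP hG hX hdX (UP_le_of_rel hG h1) (fun h =>
      hXY (Submodule.eq_of_le_of_finrank_eq h (by omega)).symm)
    omega
  apply hXY
  refine Submodule.eq_of_le_of_finrank_eq ?_ (by omega)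
  intro v hv
  by_cases hpu : ∃ k : F, v = k • u
  · obtain ⟨k, rfl⟩ := hpu
    exact Y.smul_mem _ huY
  have hp0 : v ≠ 0 := by
    rintro rfl
    exact hpu ⟨0, (zero_smul _ _).symm⟩
  have hQp : q v = 0 := hX v hv
  obtain ⟨X', hX', hX'4, d1⟩ := hS v hQp hp0
  have hpX' : v ∈ X' := hex v hQp hp0 X' hX' hX'4 d1
  have hXY3' : 3 ≤ finrank F ↥(X' ⊓ Y) := by
    have h1 : Rel p (stab hG X') (stab hG Y) := by
      have := (rel_span_stab hG (by omega) p hX hv hp0).map α
      rwa [d1, c2] at this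
    by_cases h : Y ≤ X'
    · rw [inf_eq_right.2 h]; omega
    · have h2 := finrank_inf_of_UP hG hX' (by omega) (UP_le_of_rel hG h1) h
      omega
  -- parity
  have heven : Even (finrank F ↥(X ⊓ X')) := by
    obtain ⟨g, hg, hgu⟩ := hG.trans_sing hQu hQp hu0 hp0
    obtain ⟨h, hh⟩ := QuotientGroup.mk_surjective (α ((⟨g, hg⟩ : ↥(E q)) : P q))
    have h1 : stab hG X' = stab hG (pact hG (h : P q) X) := by
      have hh' : α ((⟨g, hg⟩ : ↥(E q)) : P q) = (h : P q) := hh.symm
      rw [← d1, ← hgu, ← map_conj_stab, ← c1, ← hh', ← map_mulAut_mul, ← mul_conj, map_mulAut_mul, map_conj_stab,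
        pact_mk, mapHom_span]
    rw [pact_mk] at h1
    have h2 : finrank F (mapHom (h : W ≃ₗ[F] W) X) = 4 := (LinearEquiv.finrank_map_eq _ _).trans hX4
    have h5 : X' = mapHom (h : W ≃ₗ[F] W) X := stab_injective hG hX' (by
      rintro _ ⟨v, hv, rfl⟩
      exact (Q_apply h v).trans (hX v hv)) (hbot hX'4) (hbot h2) h1
    rw [h5]
    exact hpar h X hX hX4
  have hne : X ≠ X' := by
    intro h
    have h1 : stab hG Cc = stab hG (Submodule.span F {v}) := by
      have h2 : (stab hG Cc).map α.toMonoidHom = (stab hG (Submodule.span F {v})).map α.toMonoidHom := by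
        rw [c1, d1, h]
      exact Subgroup.map_injective α.injective h2
    have h2 := stab_injective hG (TS_span hQu) (TS_span hQp) (by
      rw [Ne, Submodule.span_singleton_eq_bot]; exact hu0) (by
      rw [Ne, Submodule.span_singleton_eq_bot]; exact hp0) h1
    have h5 : v ∈ Submodule.span F {u} := by
      rw [h2]; exact Submodule.mem_span_singleton_self v
    obtain ⟨k, hk⟩ := Submodule.mem_span_singleton.1 h5
    exact hpu ⟨k, hk.symm⟩
  have hlt : finrank F ↥(X ⊓ X') < 4 := by
    refine lt_of_lt_of_eq (Submodule.finrank_lt_finrank_of_lt (inf_le_left.lt_of_ne fun h => hne ?_)) hX4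
    exact Submodule.eq_of_le_of_finrank_eq (inf_eq_left.1 h) (by omega)
  have hle2 : finrank F ↥(X ⊓ X') ≤ 2 := by
    rw [Nat.even_iff] at heven
    omega
  -- the intersection inside `Y`
  have h1 := Submodule.finrank_sup_add_finrank_inf_eq (X ⊓ Y) (X' ⊓ Y)
  have h2 : finrank F ↥(X ⊓ Y ⊔ X' ⊓ Y) ≤ finrank F Y := Submodule.finrank_mono (sup_le inf_le_right inf_le_right)
  have h5 : (X ⊓ Y) ⊓ (X' ⊓ Y) ≤ X ⊓ X' := le_inf (inf_le_left.trans inf_le_left) (inf_le_right.trans inf_le_left)
  have h6 : (X ⊓ Y) ⊓ (X' ⊓ Y) = X ⊓ X' := Submodule.eq_of_le_of_finrank_le h5 (by omega)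
  have h7 : v ∈ (X ⊓ Y) ⊓ (X' ⊓ Y) := by
    rw [h6]; exact ⟨hv, hpX'⟩
  exact h7.1.2

end general

instance finPP : Finite PP := by
  haveI : Finite (V ≃ₗ[R] V) := finite_equiv
  exact Quotient.finite _

variable (C : Cert rho)

include C

theorem gd_two {α : MulAut PP} (h3 : α ^ 3 = 1)
    (hα : ∀ β : MulAut PP, β⁻¹ * α * β ∉ (Psi Q).range) : Gd α := by
  have hn : α ∉ (Psi Q).range := by
    have := hα 1
    rwa [inv_one, one_mul, mul_one] at this
  have hn' : α⁻¹ ∉ (Psi Q).range := fun h => hn (inv_mem_iff.1 h)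
  by_cases hex : ∃ u : V, Q u = 0 ∧ u ≠ 0 ∧ ∃ X : Submodule R V, TS Q X ∧ finrank R X = 4 ∧
      (stab hG (Submodule.span R {u})).map α.toMonoidHom = stab hG X ∧ u ∉ X
  · obtain ⟨u, hu, hu0, X, hX, h4, hst, huX⟩ := hex
    obtain ⟨g, hg1, hg2⟩ := exists_std hu hX h4 huX
    have h1 : (stab hG L0).map ((psi g)⁻¹ * α⁻¹ * psi g).toMonoidHom = stab hG (Submodule.span R {f 0}) := by
      rw [map_mulAut_mul, map_mulAut_mul, map_stab, hg2, ← hst, map_mulAut_inv, ← hg1, ← mapHom_span,
        mapHom_eq_im, ← map_stab, map_mulAut_inv]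
    exact ((two_opp C h1).of_conj _).of_inv
  exfalso
  push Not at hex
  refine exists_nonincident (q := Q) hG 5 finrank_V h3 (fun u hu hu0 => exists_four_of hG hn hu hu0)
    (fun u hu hu0 => exists_four_of hG hn' hu hu0) (fun h X hX hX4 => ?_) (Q_e 0) (e_ne 0) hex
  have h6 := H462.OEight.ev_of_E h.2 X ⟨hX4, hX⟩
  rw [H462.OEight.mem_img_ofO] at h6
  rw [Nat.even_add] at h6
  exact h6.1 (by decide)

end Cfsg.Agent.H62.Of
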