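import Cfsg.Agent.H62.Of.CaseTwoB
import Cfsg.Agent.H62.Of.Top
import Cfsg.Agent.UGT.U2.Rec.Congr
import Cfsg.Agent.H424.Spr.Core

/-!
# S3938, `PΩ⁺₈(5)` (helper62)
-/

set_option autoImplicit false
set_option linter.unusedSectionVars false
set_option linter.style.haveILetI false

namespace Cfsg.Agent.H62.Of

open Module QuadraticMap Cfsg.Agent.LieClassical.OrthCore Cfsg.Agent.LieClassical.OrthTrans
  Cfsg.Agent.ClassicalGeometry.OrthAut1 Cfsg.Agent.ClassicalGeometry.OrthAut2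
  Cfsg.Agent.LieClassical.QuadForms Cfsg.Agent.ClassicalGeometry.TrialityOct
  Cfsg.Agent.ClassicalGeometry.Triality Cfsg.Agent.ClassicalGeometry.OrthSemi Cfsg.Agent.H198.TriAut
  Cfsg.Agent.H465.OEight

theorem gd_of_range (C : Cert rho) {α : MulAut PP} (h1 : α ≠ 1) (h : α ∈ (Psi Q).range) : Gd α := by
  rw [← range_psi (by rw [ZMod.card]; norm_num)] at h
  obtain ⟨b, rfl⟩ := h
  exact gd_psi C h1

/-- every non-trivial automorphism -/
theorem gd_all (C : Cert rho) {α : MulAut PP} (h1 : α ≠ 1) : Gd α := by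
  haveI : Finite (MulAut PP) := Finite.of_injective (fun a : MulAut PP => (a : PP → PP)) DFunLike.coe_injective
  have h2 : orderOf α ≠ 1 := fun h => h1 (orderOf_eq_one_iff.1 h)
  obtain ⟨p, hp, hd⟩ := Nat.exists_prime_and_dvd h2
  obtain ⟨β, hβ⟩ : ∃ β : MulAut PP, β = α ^ (orderOf α / p) := ⟨_, rfl⟩
  have h3 : orderOf β = p := by rw [hβ]; exact orderOf_pow_orderOf_div (orderOf_pos α).ne' hd
  suffices h : Gd β by
    rw [hβ] at h; exact h.of_pow
  have hβ1 : β ≠ 1 := by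
    rintro rfl
    rw [orderOf_one] at h3
    exact hp.one_lt.ne h3
  by_cases hc : ∃ γ : MulAut PP, γ⁻¹ * β * γ ∈ (Psi Q).range
  · obtain ⟨γ, hγ⟩ := hc
    refine Gd.of_conj γ (gd_of_range C ?_ hγ)
    intro h
    apply hβ1
    have h4 : β = γ * (γ⁻¹ * β * γ) * γ⁻¹ := by group
    rw [h4, h]; group
  push Not at hc
  have hp3 : p = 3 := by
    by_contra hp3
    haveI : Fact p.Prime := ⟨hp⟩
    have h4 : IsPGroup p (Subgroup.zpowers β) := IsPGroup.of_card (n := 1) (by rw [Nat.card_zpowers, h3, pow_one])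
    have h5 : ¬ p ∣ Nat.card (MulAut PP ⧸ (Psi Q).range) := by
      rw [← Subgroup.index_eq_card, index_three]
      intro h
      exact hp3 ((Nat.prime_dvd_prime_iff_eq hp Nat.prime_three).1 h)
    obtain ⟨q, hq⟩ := h4.nonempty_fixed_point_of_prime_not_dvd_card (MulAut PP ⧸ (Psi Q).range) h5
    obtain ⟨γ, rfl⟩ := QuotientGroup.mk_surjective q
    have h6 := hq ⟨β, Subgroup.mem_zpowers β⟩
    have h7 : ((β * γ : MulAut PP) : MulAut PP ⧸ (Psi Q).range) = (γ : MulAut PP ⧸ (Psi Q).range) := h6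
    have h8 := QuotientGroup.eq.1 h7.symm
    rw [← mul_assoc] at h8
    exact hc γ h8
  refine gd_two C ?_ hc
  have h9 := pow_orderOf_eq_one β
  rw [h3, hp3] at h9
  exact h9

theorem spr_p8 : H424.Spr.Spr PP := fun _ ha => gd_all cert ha

/-- **`PΩ⁺₈(5)`** -/
theorem spr_o85 {F : Type} [Field F] [Fintype F] (hF : Fintype.card F = 5) :
    H424.Spr.Spr (POmega F (quadFormPlus 4 F)) := by
  have h1 : H424.Spr.Spr (POmega (ZMod 5) (quadFormPlus 4 (ZMod 5))) := by
    have h2 : H424.Spr.Spr (POmega (ZMod 5) ⇑(plusForm 4 (ZMod 5))) := spr_p8.congr (AutOrth.Main.pe hG).symm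
    rwa [coe_plusForm] at h2
  obtain ⟨e⟩ := UGT.U2.Rec.Congr.nonempty_POmega (F := ZMod 5) (F' := F) (ι := Fin 4 ⊕ Fin 4)
    (ZMod.ringEquivOfPrime F (by norm_num) hF) (Q := quadFormPlus 4 (ZMod 5)) (Q' := quadFormPlus 4 F)
    (fun v => by simp [quadFormPlus, map_sum, map_mul])
  exact h1.congr e

end Cfsg.Agent.H62.Of
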